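import Mathlib
import Cfsg.Prelude.Def_TwoFusion

set_option autoImplicit false

namespace Cfsg.Agent.Syl2A

/-- the wreath product `C₂ ≀ Sym(M)` -/
@[ext] structure WE (M : Type*) where
  f : M → ZMod 2
  r : Equiv.Perm M

namespace WE
variable {M : Type*}

instance : Mul (WE M) := ⟨fun x y => ⟨fun i => x.f i + y.f (x.r.symm i), x.r * y.r⟩⟩
instance : One (WE M) := ⟨⟨0, 1⟩⟩
instance : Inv (WE M) := ⟨fun x => ⟨fun i => x.f (x.r i), x.r⁻¹⟩⟩

@[simp] lemma mul_f (x y : WE M) (i : M) : (x * y).f i = x.f i + y.f (x.r.symm i) := rfl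
@[simp] lemma mul_r (x y : WE M) : (x * y).r = x.r * y.r := rfl
@[simp] lemma one_f (i : M) : (1 : WE M).f i = 0 := rfl
@[simp] lemma one_f' : (1 : WE M).f = 0 := rfl
@[simp] lemma one_r : (1 : WE M).r = 1 := rfl
@[simp] lemma inv_f (x : WE M) (i : M) : (x⁻¹).f i = x.f (x.r i) := rfl
@[simp] lemma inv_r (x : WE M) : (x⁻¹).r = x.r⁻¹ := rfl

instance : Group (WE M) := Group.ofLeftAxioms
  (by
    intro a b c
    ext i
    · simp only [mul_f, mul_r, add_assoc]; rfl
    · simp [mul_r, mul_assoc])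
  (by
    intro a
    ext i
    · simp; rfl
    · simp)
  (by
    intro a
    ext i
    · simp only [mul_f, inv_f, inv_r, one_f]
      exact CharTwo.add_self_eq_zero _
    · simp)

lemma r_hom_pow (x : WE M) (n : ℕ) : (x ^ n).r = x.r ^ n := by
  induction n with
  | zero => simp
  | succ n ih => rw [pow_succ, pow_succ, mul_r, ih]

/-- element `(f, 1)` -/
def v (f : M → ZMod 2) : WE M := ⟨f, 1⟩
@[simp] lemma v_f (f : M → ZMod 2) : (v f).f = f := rfl
@[simp] lemma v_r (f : M → ZMod 2) : (v f).r = 1 := rfl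
lemma v_mul (f g : M → ZMod 2) : v f * v g = v (f + g) := by
  ext i
  · simp only [mul_f, v_f, v_r, Pi.add_apply]; rfl
  · simp
lemma v_zero : v (0 : M → ZMod 2) = 1 := rfl

variable [Fintype M]

/-- the group `W(T)` -/
def W (T : Subgroup (Equiv.Perm M)) : Subgroup (WE M) where
  carrier := {x | x.r ∈ T ∧ ∑ i, x.f i = 0}
  one_mem' := by simp [T.one_mem]
  mul_mem' := by
    rintro x y ⟨hx, hx'⟩ ⟨hy, hy'⟩
    refine ⟨T.mul_mem hx hy, ?_⟩
    simp only [mul_f, Finset.sum_add_distrib]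
    rw [hx', zero_add, ← hy']
    exact Equiv.sum_comp (x.r.symm) y.f
  inv_mem' := by
    rintro x ⟨hx, hx'⟩
    refine ⟨T.inv_mem hx, ?_⟩
    simp only [inv_f]
    rw [← hx']
    exact Equiv.sum_comp x.r x.f

lemma mem_W {T : Subgroup (Equiv.Perm M)} {x : WE M} : x ∈ W T ↔ x.r ∈ T ∧ ∑ i, x.f i = 0 := Iff.rfl

variable [DecidableEq M]

/-- `e_i + e_j` -/
def e2 (i j : M) : M → ZMod 2 := Pi.single i 1 + Pi.single j 1

lemma e2_sum (i j : M) : ∑ k, e2 i j k = 0 := by
  simp only [e2, Pi.add_apply, Finset.sum_add_distrib, Finset.sum_pi_single']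
  simp only [Finset.mem_univ, if_true]
  rfl

lemma e2_mem (T : Subgroup (Equiv.Perm M)) (i j : M) : v (e2 i j) ∈ W T :=
  ⟨T.one_mem, e2_sum i j⟩

lemma single_perm (g : Equiv.Perm M) (i k : M) :
    (Pi.single i (1 : ZMod 2) : M → ZMod 2) (g.symm k) = (Pi.single (g i) (1 : ZMod 2) : M → ZMod 2) k := by
  by_cases h : k = g i
  · subst h; simp
  · have h' : ¬ g.symm k = i := by
      intro h'
      apply h
      rw [← h']
      simp
    rw [Pi.single_apply, Pi.single_apply, if_neg h, if_neg h']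

lemma e2_perm (g : Equiv.Perm M) (i j k : M) : e2 i j (g.symm k) = e2 (g i) (g j) k := by
  simp only [e2, Pi.add_apply, single_perm]

/-- conjugation of `v f` -/
lemma conj_v (x : WE M) (f : M → ZMod 2) : x * v f * x⁻¹ = v (fun k => f (x.r.symm k)) := by
  ext i
  · simp only [mul_f, v_f, mul_r, v_r, inv_f, mul_one, Equiv.apply_symm_apply]
    have : x.f i + f (x.r.symm i) + x.f i = f (x.r.symm i) + (x.f i + x.f i) := by ring
    rw [this, CharTwo.add_self_eq_zero, add_zero]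
  · simp

end WE

end Cfsg.Agent.Syl2A
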