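import Mathlib

set_option autoImplicit false

namespace Cfsg.Agent.Syl2A

variable {M : Type*} [Fintype M] [DecidableEq M] (T : Sylow 2 (Equiv.Perm M))

lemma mem_of_comm {x : Equiv.Perm M} {k : ℕ} (hx : x ^ (2 ^ k) = 1)
    (hc : ∀ t ∈ T, t * x = x * t) : x ∈ T := by
  have h1 : IsPGroup 2 (Subgroup.zpowers x) := by
    intro y
    obtain ⟨n, hn⟩ := Subgroup.mem_zpowers_iff.mp y.2
    refine ⟨k, ?_⟩
    ext1
    push_cast
    rw [← hn, ← zpow_natCast, ← zpow_mul, mul_comm, zpow_mul, zpow_natCast, hx, one_zpow]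
  have h2 : (Subgroup.zpowers x) ≤ Subgroup.normalizer ((T : Subgroup (Equiv.Perm M)) : Set (Equiv.Perm M)) := by
    rw [Subgroup.zpowers_le]
    rw [Subgroup.mem_normalizer_iff]
    intro t
    constructor
    · intro ht
      rw [← hc t ht]; simpa using ht
    · intro ht
      have := hc _ ht
      have h3 : t = x⁻¹ * (x * t * x⁻¹) * x := by group
      have h4 : x⁻¹ * (x * t * x⁻¹) * x = x * t * x⁻¹ := by
        rw [mul_assoc, this, ← mul_assoc, inv_mul_cancel, one_mul]
      rw [h3, h4]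
      exact ht
  have h3 : IsPGroup 2 (((T : Subgroup (Equiv.Perm M)) ⊔ Subgroup.zpowers x : Subgroup _)) := by
    rw [sup_comm]
    exact h1.to_sup_of_normal_right' T.isPGroup' h2
  have h4 := T.is_maximal' h3 le_sup_left
  have : x ∈ (T : Subgroup (Equiv.Perm M)) ⊔ Subgroup.zpowers x :=
    (le_sup_right : Subgroup.zpowers x ≤ _) (Subgroup.mem_zpowers x)
  rw [h4] at this
  exact this

lemma fixed_unique {i j : M} (hi : ∀ t ∈ T, t i = i) (hj : ∀ t ∈ T, t j = j) : i = j := by
  by_contra h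
  have h1 : Equiv.swap i j ∈ T := by
    apply mem_of_comm T (k := 1)
    · rw [pow_one, pow_two, Equiv.swap_mul_self]
    · intro t ht
      ext k
      simp only [Equiv.Perm.mul_apply, Equiv.swap_apply_def]
      have e1 : t k = i ↔ k = i := by
        constructor
        · intro h'; apply t.injective; rw [h', hi t ht]
        · rintro rfl; exact hi t ht
      have e2 : t k = j ↔ k = j := by
        constructor
        · intro h'; apply t.injective; rw [h', hj t ht]
        · rintro rfl; exact hj t ht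
      simp only [e1, e2]
      split_ifs
      · rw [hj t ht]
      · rw [hi t ht]
      · rfl
  have h2 := hi _ h1
  rw [Equiv.swap_apply_left] at h2
  exact h h2.symm

omit [Fintype M] [DecidableEq M] in
lemma pow_agree {x t : Equiv.Perm M} {O : Set M} (ht : ∀ i, t i ∈ O ↔ i ∈ O)
    (h : ∀ i ∈ O, x i = t i) (n : ℕ) : ∀ i ∈ O, (x ^ n) i = (t ^ n) i := by
  induction n with
  | zero => intro i _; simp
  | succ n ih =>
    intro i hi
    rw [pow_succ, pow_succ, Equiv.Perm.mul_apply, Equiv.Perm.mul_apply, h i hi]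
    exact ih _ ((ht i).mpr hi)

/-- Sylow 2-subgroups of `Sym` split over invariant sets -/
lemma split (O : Set M) (hO : ∀ t ∈ T, ∀ i, t i ∈ O ↔ i ∈ O) {t : Equiv.Perm M} (ht : t ∈ T) :
    ∃ t' ∈ T, (∀ i ∈ O, t' i = t i) ∧ (∀ i, i ∉ O → t' i = i) := by
  classical
  let K : Subgroup (Equiv.Perm M) :=
    { carrier := {x | ∃ t ∈ T, ∃ u ∈ T, (∀ i ∈ O, x i = t i) ∧ (∀ i, i ∉ O → x i = u i)}
      one_mem' := ⟨1, T.one_mem, 1, T.one_mem, fun _ _ => rfl, fun _ _ => rfl⟩
      mul_mem' := by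
        rintro x y ⟨t, ht, u, hu, h1, h2⟩ ⟨t', ht', u', hu', h1', h2'⟩
        refine ⟨t * t', T.mul_mem ht ht', u * u', T.mul_mem hu hu', ?_, ?_⟩
        · intro i hi
          rw [Equiv.Perm.mul_apply, Equiv.Perm.mul_apply, h1' i hi]
          exact h1 _ ((hO t' ht' i).mpr hi)
        · intro i hi
          rw [Equiv.Perm.mul_apply, Equiv.Perm.mul_apply, h2' i hi]
          exact h2 _ (fun h => hi ((hO u' hu' i).mp h))
      inv_mem' := by
        rintro x ⟨t, ht, u, hu, h1, h2⟩
        refine ⟨t⁻¹, T.inv_mem ht, u⁻¹, T.inv_mem hu, ?_, ?_⟩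
        · intro i hi
          have h3 : t⁻¹ i ∈ O := (hO _ (T.inv_mem ht) i).mpr hi
          have h4 := h1 _ h3
          rw [Equiv.Perm.inv_eq_iff_eq, h4]
          simp
        · intro i hi
          have h3 : u⁻¹ i ∉ O := fun h => hi ((hO _ (T.inv_mem hu) i).mp h)
          have h4 := h2 _ h3
          rw [Equiv.Perm.inv_eq_iff_eq, h4]
          simp }
  have hK : IsPGroup 2 K := by
    rintro ⟨x, t, ht, u, hu, h1, h2⟩
    obtain ⟨a, ha⟩ := T.isPGroup' ⟨t, ht⟩
    obtain ⟨b, hb⟩ := T.isPGroup' ⟨u, hu⟩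
    have ha' : t ^ (2 ^ a) = 1 := congrArg Subtype.val ha
    have hb' : u ^ (2 ^ b) = 1 := congrArg Subtype.val hb
    refine ⟨a + b, ?_⟩
    ext1
    push_cast
    ext i
    by_cases hi : i ∈ O
    · rw [pow_agree (hO t ht) h1 _ i hi, pow_add, pow_mul, ha', one_pow]
    · have h3 := pow_agree (O := Oᶜ) (x := x) (t := u)
        (fun i => by simp only [Set.mem_compl_iff, hO u hu i]) (fun i hi => h2 i hi) (2 ^ (a + b)) i hi
      rw [h3, pow_add, mul_comm, pow_mul, hb', one_pow]
  have hTK : (T : Subgroup (Equiv.Perm M)) ≤ K := fun t ht => ⟨t, ht, t, ht, fun _ _ => rfl, fun _ _ => rfl⟩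
  have hKT := T.is_maximal' hK hTK
  let x : Equiv.Perm M :=
    { toFun := fun i => if i ∈ O then t i else i
      invFun := fun i => if i ∈ O then t⁻¹ i else i
      left_inv := by
        intro i
        by_cases hi : i ∈ O
        · simp only [hi, if_true, (hO t ht i).mpr hi]; simp
        · simp [hi]
      right_inv := by
        intro i
        by_cases hi : i ∈ O
        · simp only [hi, if_true, (hO _ (T.inv_mem ht) i).mpr hi]; simp
        · simp [hi] }
  have hx1 : ∀ i ∈ O, x i = t i := fun i hi => by simp [x, hi]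
  have hx2 : ∀ i, i ∉ O → x i = i := fun i hi => by simp [x, hi]
  refine ⟨x, ?_, hx1, hx2⟩
  have : x ∈ K := ⟨t, ht, 1, T.one_mem, hx1, hx2⟩
  rw [hKT] at this
  exact this

/-- points moved by `T` -/
def Mv : Set M := {i | ∃ t ∈ T, t i ≠ i}

/-- permutations supported in `p` -/
def Hp (p : M → Prop) : Subgroup (Equiv.Perm M) where
  carrier := {f | ∀ a, ¬ p a → f a = a}
  one_mem' := fun _ _ => rfl
  mul_mem' := by
    intro x y hx hy a ha
    rw [Equiv.Perm.mul_apply, hy a ha, hx a ha]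
  inv_mem' := by
    intro x hx a ha
    rw [Equiv.Perm.inv_eq_iff_eq, hx a ha]

lemma card_Hp (p : M → Prop) [DecidablePred p] :
    Nat.card (Hp p) = (Fintype.card {a // p a}).factorial := by
  have : Nat.card (Hp p) = Nat.card {f : Equiv.Perm M // ∀ a, ¬ p a → f a = a} := rfl
  rw [this, ← Nat.card_congr (Equiv.Perm.subtypeEquivSubtypePerm p), Nat.card_eq_fintype_card,
    Fintype.card_perm]

/-- `T` is transitive on the moved points if their number is a power of two -/
lemma trans_of_pow {k : ℕ} (hk : Nat.card (Mv T) = 2 ^ k) {i j : M} (hi : i ∈ Mv T) (hj : j ∈ Mv T) :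
    ∃ t ∈ T, t i = j := by
  classical
  have horb : MulAction.orbit T i ⊆ Mv T := by
    rintro _ ⟨t, rfl⟩
    obtain ⟨u, hu, hui⟩ := hi
    refine ⟨t.1 * u * (t.1)⁻¹, T.mul_mem (T.mul_mem t.2 hu) (T.inv_mem t.2), ?_⟩
    intro h
    apply hui
    have h' : (t.1 * u * (t.1)⁻¹) (t.1 i) = t.1 i := h
    rw [Equiv.Perm.mul_apply, Equiv.Perm.mul_apply] at h'
    have h2 := t.1.injective h'
    simpa using h2
  suffices hs : Mv T ⊆ MulAction.orbit T i by
    obtain ⟨t, ht⟩ := hs hj
    exact ⟨t.1, t.2, ht⟩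
  have hfinM : (Mv T).Finite := Set.toFinite _
  rw [Set.eq_of_subset_of_ncard_le horb _ hfinM]
  change Nat.card (Mv T) ≤ Nat.card (MulAction.orbit T i)
  have h1 : Nat.card (MulAction.orbit T i) * Nat.card (MulAction.stabilizer T i) = Nat.card T := by
    have e0 := Subgroup.index_mul_card (MulAction.stabilizer T i)
    rw [MulAction.index_stabilizer] at e0
    exact e0
  have h2 : Nat.card T = 2 ^ ((Fintype.card M).factorial).factorization 2 := by
    rw [Sylow.card_eq_multiplicity, Nat.card_eq_fintype_card, Fintype.card_perm]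
  -- stabilizer
  have h3 : Nat.card (MulAction.stabilizer T i) ∣ (2 ^ k - 1).factorial := by
    have e1 : (MulAction.stabilizer T i).map (Subgroup.subtype (T : Subgroup (Equiv.Perm M)))
        ≤ Hp (fun a => a ∈ Mv T ∧ a ≠ i) := by
      rintro _ ⟨t, ht, rfl⟩
      intro a ha
      rw [not_and_or, not_ne_iff] at ha
      rcases ha with ha | rfl
      · by_contra h
        exact ha ⟨t.1, t.2, h⟩
      · exact ht
    have e2 := Subgroup.card_dvd_of_le e1
    rw [Subgroup.card_map_of_injective (Subgroup.subtype_injective _), card_Hp] at e2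
    have e3 : Fintype.card {a // a ∈ Mv T ∧ a ≠ i} = 2 ^ k - 1 := by
      rw [← hk, ← Nat.card_eq_fintype_card]
      have e4 : {a | a ∈ Mv T ∧ a ≠ i} = Mv T \ {i} := by
        ext a; simp
      change Nat.card {a | a ∈ Mv T ∧ a ≠ i} = _
      rw [e4]
      have := Set.ncard_sdiff_singleton_of_mem hi
      exact this
    rwa [e3] at e2
  have h4 : ∃ s, Nat.card (MulAction.stabilizer T i) = 2 ^ s :=
    IsPGroup.iff_card.mp (T.isPGroup'.to_subgroup _)
  obtain ⟨s, hs⟩ := h4
  rw [hs] at h1 h3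
  have hkpos : 0 < 2 ^ k := by positivity
  have h5 : 2 ^ (k + s) ∣ (Fintype.card M).factorial := by
    have e1 : 2 ^ k * (2 ^ k - 1).factorial = (2 ^ k).factorial := Nat.mul_factorial_pred hkpos.ne'
    have e2 : 2 ^ k ≤ Fintype.card M := by
      rw [← hk, ← Nat.card_eq_fintype_card]
      exact Nat.card_le_card_of_injective _ Subtype.val_injective
    calc 2 ^ (k + s) = 2 ^ k * 2 ^ s := pow_add _ _ _
      _ ∣ 2 ^ k * (2 ^ k - 1).factorial := Nat.mul_dvd_mul_left _ h3
      _ = (2 ^ k).factorial := e1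
      _ ∣ _ := Nat.factorial_dvd_factorial e2
  have h6 : k + s ≤ ((Fintype.card M).factorial).factorization 2 :=
    (Nat.Prime.pow_dvd_iff_le_factorization Nat.prime_two (Nat.factorial_ne_zero _)).mp h5
  have h7 : 2 ^ k * 2 ^ s ≤ Nat.card (MulAction.orbit T i) * 2 ^ s := by
    rw [h1, h2, ← pow_add]
    exact Nat.pow_le_pow_right (by norm_num) h6
  rw [hk]
  exact Nat.le_of_mul_le_mul_right h7 (by positivity)

/-- transitive on the moved points implies that their number is a power of two -/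
lemma pow_of_trans {i : M} (hi : i ∈ Mv T) (h : ∀ j ∈ Mv T, ∃ t ∈ T, t i = j) :
    ∃ k : ℕ, Nat.card (Mv T) = 2 ^ k := by
  have horb : MulAction.orbit T i = Mv T := by
    apply Set.Subset.antisymm
    · rintro _ ⟨t, rfl⟩
      obtain ⟨u, hu, hui⟩ := hi
      refine ⟨t.1 * u * (t.1)⁻¹, T.mul_mem (T.mul_mem t.2 hu) (T.inv_mem t.2), ?_⟩
      intro h
      apply hui
      have h' : (t.1 * u * (t.1)⁻¹) (t.1 i) = t.1 i := h
      rw [Equiv.Perm.mul_apply, Equiv.Perm.mul_apply] at h'
      have h2 := t.1.injective h'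
      simpa using h2
    · intro j hj
      obtain ⟨t, ht, hh⟩ := h j hj
      exact ⟨⟨t, ht⟩, hh⟩
  rw [← horb]
  have h1 : Nat.card (MulAction.orbit T i) * Nat.card (MulAction.stabilizer T i) = Nat.card T := by
    have e0 := Subgroup.index_mul_card (MulAction.stabilizer T i)
    rw [MulAction.index_stabilizer] at e0
    exact e0
  obtain ⟨n, hn⟩ := IsPGroup.iff_card.mp T.isPGroup'
  have h2 : Nat.card (MulAction.orbit T i) ∣ 2 ^ n := by
    rw [← hn]; exact ⟨_, h1.symm⟩
  obtain ⟨k, _, hk⟩ := (Nat.dvd_prime_pow Nat.prime_two).mp h2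
  exact ⟨k, hk⟩

/-- parity: an invariant set without fixed points has even size -/
lemma even_of_inv (R : Subgroup (Equiv.Perm M)) (hR : IsPGroup 2 R) (S : Finset M)
    (hS : ∀ t ∈ R, ∀ i, i ∈ S → t i ∈ S) (hf : ∀ i ∈ S, ∃ t ∈ R, t i ≠ i) : Even S.card := by
  classical
  letI : MulAction R S :=
    { smul := fun t i => ⟨t.1 i.1, hS t.1 t.2 i.1 i.2⟩
      one_smul := fun i => rfl
      mul_smul := fun s t i => rfl }
  have h1 := hR.card_modEq_card_fixedPoints S
  have h2 : MulAction.fixedPoints R S = ∅ := by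
    ext i
    simp only [Set.mem_empty_iff_false, iff_false]
    intro hi
    obtain ⟨t, ht, hti⟩ := hf i.1 i.2
    exact hti (congrArg Subtype.val (hi ⟨t, ht⟩))
  rw [h2] at h1
  simp at h1
  exact Nat.even_iff.mpr h1

/-- invariant functions into `ZMod 2` sum to zero over invariant sets without fixed points -/
lemma sum_inv (R : Subgroup (Equiv.Perm M)) (hR : IsPGroup 2 R) (S : Finset M)
    (hS : ∀ t ∈ R, ∀ i, i ∈ S → t i ∈ S) (hf : ∀ i ∈ S, ∃ t ∈ R, t i ≠ i)
    (c : M → ZMod 2) (hc : ∀ t ∈ R, ∀ i ∈ S, c (t i) = c i) : ∑ i ∈ S, c i = 0 := by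
  classical
  have h1 : ∑ i ∈ S, c i = ∑ i ∈ S.filter (fun i => c i = 1), 1 := by
    rw [Finset.sum_filter]
    apply Finset.sum_congr rfl
    intro i _
    have : ∀ a : ZMod 2, a = if a = 1 then 1 else 0 := by decide
    exact this (c i)
  rw [h1, Finset.sum_const]
  have h2 : Even (S.filter (fun i => c i = 1)).card := by
    apply even_of_inv R hR
    · intro t ht i hi
      rw [Finset.mem_filter] at hi ⊢
      exact ⟨hS t ht i hi.1, by rw [hc t ht i hi.1]; exact hi.2⟩
    · intro i hi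
      rw [Finset.mem_filter] at hi
      exact hf i hi.1
  obtain ⟨r, hr⟩ := h2
  rw [hr, add_smul]
  exact CharTwo.add_self_eq_zero _

end Cfsg.Agent.Syl2A
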