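import Mathlib
import Cfsg.Agent.Syl2A.Basic
import Cfsg.Agent.Syl2A.Syl

set_option autoImplicit false

namespace Cfsg.Agent.Syl2A
open WE

variable {M : Type*} [Fintype M] [DecidableEq M] (T : Sylow 2 (Equiv.Perm M))

/-- decomposable -/
def Dec {G : Type*} [Group G] (P : Subgroup G) : Prop :=
  ∃ S₁ S₂ : Subgroup G, S₁ ≠ ⊥ ∧ S₂ ≠ ⊥ ∧ Cfsg.IsInternalDirectProduct S₁ S₂ P

abbrev WT : Subgroup (WE M) := WE.W (T : Subgroup (Equiv.Perm M))

omit [Fintype M] in
lemma e2_eq {a b i j : M} (hab : a ≠ b) (h : e2 a b = e2 i j) : a = i ∨ a = j := by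
  have h1 : e2 a b a = 1 := by simp [e2, hab]
  rw [h] at h1
  by_contra hc
  push Not at hc
  simp [e2, hc.1, hc.2] at h1

omit [Fintype M] in
lemma e2_symm (i j : M) : e2 i j = e2 j i := add_comm _ _

lemma lift_mem {t : Equiv.Perm M} (ht : t ∈ T) : (⟨0, t⟩ : WE M) ∈ WT T := ⟨ht, by simp⟩

lemma isPGroup_WT : IsPGroup 2 (WT T) := by
  rintro ⟨x, hx, hx'⟩
  obtain ⟨k, hk⟩ := T.isPGroup' ⟨x.r, hx⟩
  refine ⟨k + 1, ?_⟩
  ext1
  push_cast
  have hk' : x.r ^ (2 ^ k) = 1 := congrArg Subtype.val hk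
  rw [pow_succ, pow_mul, pow_two]
  have h1 : (x ^ 2 ^ k).r = 1 := by rw [r_hom_pow, hk']
  ext i
  · rw [mul_f, h1]
    exact CharTwo.add_self_eq_zero _
  · rw [mul_r, h1]; simp

lemma central_r (hM : 3 ≤ Fintype.card M) {z : WE M} (hz : ∀ x ∈ WT T, x * z = z * x) : z.r = 1 := by
  have h1 : ∀ i j : M, e2 (z.r i) (z.r j) = e2 i j := by
    intro i j
    have e1 := hz _ (e2_mem (T : Subgroup (Equiv.Perm M)) i j)
    have e2' := conj_v z (e2 i j)
    rw [← e1, mul_assoc, mul_inv_cancel, mul_one] at e2'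
    have e3 := congrArg WE.f e2'
    simp only [v_f] at e3
    funext k
    rw [e3, ← e2_perm]
  ext i
  rw [Equiv.Perm.one_apply]
  have h2 : ∃ j l : M, j ≠ i ∧ l ≠ i ∧ j ≠ l := by
    have : 2 ≤ (Finset.univ.erase i).card := by
      rw [Finset.card_erase_of_mem (Finset.mem_univ _), Finset.card_univ]; omega
    obtain ⟨j, hj, l, hl, hjl⟩ := Finset.one_lt_card.mp this
    exact ⟨j, l, (Finset.mem_erase.mp hj).1, (Finset.mem_erase.mp hl).1, hjl⟩
  obtain ⟨j, l, hj, hl, hjl⟩ := h2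
  have h3 := e2_eq (fun h => hj (z.r.injective h).symm) (h1 i j)
  have h4 := e2_eq (fun h => hl (z.r.injective h).symm) (h1 i l)
  rcases h3 with h3 | h3
  · exact h3
  · rcases h4 with h4 | h4
    · exact h4
    · exact absurd (h3.symm.trans h4) hjl

lemma central_f {z : WE M} (hz : ∀ x ∈ WT T, x * z = z * x) : ∀ t ∈ T, ∀ i, z.f (t i) = z.f i := by
  intro t ht i
  have e1 := hz _ (lift_mem T ht)
  have e2 := congrArg (fun x => WE.f x (t i)) e1
  simp at e2
  exact e2.symm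

lemma mv_inv {t : Equiv.Perm M} (ht : t ∈ T) {i : M} (hi : i ∈ Mv T) : t i ∈ Mv T := by
  obtain ⟨u, hu, hui⟩ := hi
  refine ⟨t * u * t⁻¹, T.mul_mem (T.mul_mem ht hu) (T.inv_mem ht), ?_⟩
  intro h
  apply hui
  rw [Equiv.Perm.mul_apply, Equiv.Perm.mul_apply] at h
  have h2 := t.injective h
  simpa using h2

lemma fix_of_not_mv {i : M} (hi : i ∉ Mv T) : ∀ t ∈ T, t i = i := by
  intro t ht; by_contra h; exact hi ⟨t, ht, h⟩

lemma sum_fixed {f : M → ZMod 2} (hf : ∑ i, f i = 0) (hT : ∀ t ∈ T, ∀ i, f (t i) = f i) {i₀ : M}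
    (h0 : i₀ ∉ Mv T) : f i₀ = 0 := by
  classical
  have h1 : ∑ i ∈ Finset.univ.filter (fun i => i ∈ Mv T), f i = 0 := by
    apply sum_inv (T : Subgroup (Equiv.Perm M)) T.isPGroup'
    · intro t ht i hi
      rw [Finset.mem_filter] at hi ⊢
      exact ⟨Finset.mem_univ _, mv_inv T ht hi.2⟩
    · intro i hi
      rw [Finset.mem_filter] at hi
      exact hi.2
    · intro t ht i _
      exact hT t ht i
  have h2 := Finset.sum_filter_add_sum_filter_not Finset.univ (fun i => i ∈ Mv T) f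
  rw [hf, h1, zero_add] at h2
  have h3 : Finset.univ.filter (fun i => i ∉ Mv T) = {i₀} := by
    ext i
    simp only [Finset.mem_filter, Finset.mem_univ, true_and, Finset.mem_singleton]
    constructor
    · intro hi
      exact fixed_unique T (fix_of_not_mv T hi) (fix_of_not_mv T h0)
    · rintro rfl; exact h0
  rw [h3, Finset.sum_singleton] at h2
  exact h2

/-- center of order at most two in the transitive case -/
lemma central_unique (hM : 3 ≤ Fintype.card M) (htr : ∀ i ∈ Mv T, ∀ j ∈ Mv T, ∃ t ∈ T, t i = j)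
    {z w : WE M} (hzW : z ∈ WT T) (hwW : w ∈ WT T)
    (hz : ∀ x ∈ WT T, x * z = z * x) (hw : ∀ x ∈ WT T, x * w = w * x) (hz1 : z ≠ 1) (hw1 : w ≠ 1) :
    z = w := by
  have key : ∀ z : WE M, z ∈ WT T → (∀ x ∈ WT T, x * z = z * x) → z ≠ 1 →
      (∀ i, i ∈ Mv T → z.f i = 1) ∧ (∀ i, i ∉ Mv T → z.f i = 0) := by
    intro z hzW hz hz1
    have h1 := central_r T hM hz
    have h2 := central_f T hz
    have h3 : ∀ i, i ∉ Mv T → z.f i = 0 := fun i hi => sum_fixed T hzW.2 h2 hi
    refine ⟨?_, h3⟩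
    have h4 : ∃ j, z.f j ≠ 0 := by
      by_contra hc
      push Not at hc
      apply hz1
      ext i
      · rw [hc i]; rfl
      · rw [h1]; rfl
    obtain ⟨j, hj⟩ := h4
    have hjM : j ∈ Mv T := by
      by_contra h
      exact hj (h3 j h)
    intro i hi
    obtain ⟨t, ht, hti⟩ := htr j hjM i hi
    rw [← hti, h2 t ht j]
    have : ∀ a : ZMod 2, a ≠ 0 → a = 1 := by decide
    exact this _ hj
  obtain ⟨a1, a2⟩ := key z hzW hz hz1
  obtain ⟨b1, b2⟩ := key w hwW hw hw1
  ext i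
  · by_cases hi : i ∈ Mv T
    · rw [a1 i hi, b1 i hi]
    · rw [a2 i hi, b2 i hi]
  · rw [central_r T hM hz, central_r T hM hw]

section
variable {G : Type*} [Group G]

lemma exists_central {p : ℕ} [Fact p.Prime] {A B P : Subgroup G} [Finite A] (hA : IsPGroup p A)
    (hne : A ≠ ⊥) (hAB : ∀ a ∈ A, ∀ b ∈ B, a * b = b * a) (hP : A ⊔ B = P) :
    ∃ z ∈ A, z ≠ 1 ∧ ∀ x ∈ P, x * z = z * x := by
  haveI : Nontrivial A := (Subgroup.nontrivial_iff_ne_bot A).mpr hne
  haveI := hA.center_nontrivial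
  obtain ⟨⟨z, hz⟩, hz1⟩ := exists_ne (1 : Subgroup.center A)
  refine ⟨z.1, z.2, ?_, ?_⟩
  · intro h
    apply hz1
    ext
    exact h
  · intro x hx
    rw [← hP] at hx
    have hle : A ⊔ B ≤ Subgroup.centralizer {z.1} := by
      rw [sup_le_iff]
      constructor
      · intro a ha
        rw [Subgroup.mem_centralizer_singleton_iff]
        rw [Subgroup.mem_center_iff] at hz
        exact congrArg Subtype.val (hz ⟨a, ha⟩)
      · intro b hb
        rw [Subgroup.mem_centralizer_singleton_iff]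
        exact (hAB _ z.2 b hb).symm
    have := hle hx
    rw [Subgroup.mem_centralizer_singleton_iff] at this
    exact this

end

lemma not_dec_of_trans (hM : 3 ≤ Fintype.card M)
    (htr : ∀ i ∈ Mv T, ∀ j ∈ Mv T, ∃ t ∈ T, t i = j) : ¬ Dec (WT T) := by
  haveI : Finite (WE M) := Finite.of_injective (fun x : WE M => (x.f, x.r)) (by
    rintro ⟨f, r⟩ ⟨f', r'⟩ h
    simp only [Prod.mk.injEq] at h
    obtain ⟨rfl, rfl⟩ := h
    rfl)
  rintro ⟨A, B, hA, hB, hAW, hBW, hc, hi, hs⟩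
  have hpA : IsPGroup 2 A := (isPGroup_WT T).to_le hAW
  have hpB : IsPGroup 2 B := (isPGroup_WT T).to_le hBW
  obtain ⟨a, haA, ha1, haz⟩ := exists_central hpA hA hc hs
  obtain ⟨b, hbB, hb1, hbz⟩ := exists_central (P := WT T) hpB hB (fun b hb a ha => (hc a ha b hb).symm)
    (by rw [sup_comm]; exact hs)
  have := central_unique T hM htr (hAW haA) (hBW hbB) haz hbz ha1 hb1
  have h1 : a ∈ A ⊓ B := ⟨haA, this ▸ hbB⟩
  rw [hi, Subgroup.mem_bot] at h1
  exact ha1 h1

/-- small case -/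
lemma dec_two (hM : Fintype.card M = 2) : Dec (WT T) := by
  obtain ⟨a, b, hab, hu⟩ := Finset.card_eq_two.mp (show (Finset.univ : Finset M).card = 2 from hM)
  have hall : ∀ i : M, i = a ∨ i = b := by
    intro i
    have := Finset.mem_univ i
    rw [hu] at this
    simpa using this
  let A : Subgroup (WE M) :=
    { carrier := {x | x ∈ WT T ∧ x.r = 1}
      one_mem' := ⟨(WT T).one_mem, rfl⟩
      mul_mem' := by
        rintro x y ⟨hx, hx'⟩ ⟨hy, hy'⟩
        exact ⟨(WT T).mul_mem hx hy, by rw [mul_r, hx', hy', one_mul]⟩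
      inv_mem' := by
        rintro x ⟨hx, hx'⟩
        exact ⟨(WT T).inv_mem hx, by rw [inv_r, hx', inv_one]⟩ }
  let B : Subgroup (WE M) :=
    { carrier := {x | x ∈ WT T ∧ x.f = 0}
      one_mem' := ⟨(WT T).one_mem, rfl⟩
      mul_mem' := by
        rintro x y ⟨hx, hx'⟩ ⟨hy, hy'⟩
        refine ⟨(WT T).mul_mem hx hy, ?_⟩
        funext i
        simp [hx', hy']
      inv_mem' := by
        rintro x ⟨hx, hx'⟩
        refine ⟨(WT T).inv_mem hx, ?_⟩
        funext i
        simp [hx'] }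
  refine ⟨A, B, ?_, ?_, fun x hx => hx.1, fun x hx => hx.1, ?_, ?_, ?_⟩
  · intro h
    have h1 : v (e2 a b) ∈ A := ⟨e2_mem _ a b, rfl⟩
    rw [h, Subgroup.mem_bot] at h1
    have h2 := congrArg (fun x => WE.f x a) h1
    simp [e2, hab] at h2
  · intro h
    have h0 : ∃ t ∈ T, t ≠ 1 := by
      by_contra hc
      push Not at hc
      apply hab
      apply fixed_unique T
      · intro t ht; rw [hc t ht]; rfl
      · intro t ht; rw [hc t ht]; rfl
    obtain ⟨t, ht, ht1⟩ := h0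
    have h1 : (⟨0, t⟩ : WE M) ∈ B := ⟨lift_mem T ht, rfl⟩
    rw [h, Subgroup.mem_bot] at h1
    exact ht1 (congrArg WE.r h1)
  · rintro x ⟨hx, hx'⟩ y ⟨hy, hy'⟩
    have h1 : x.f a = x.f b := by
      have := hx.2
      rw [hu, Finset.sum_pair hab] at this
      exact CharTwo.add_eq_zero.mp this
    ext i
    · simp only [mul_f, hy', Pi.zero_apply, add_zero, zero_add]
      rcases hall i with hi | hi <;> rcases hall (y.r.symm i) with hj | hj <;> rw [hj, hi] <;>
        simp [h1]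
    · rw [mul_r, mul_r, hx', one_mul, mul_one]
  · rw [eq_bot_iff]
    rintro x ⟨⟨_, h1⟩, ⟨_, h2⟩⟩
    rw [Subgroup.mem_bot]
    ext i
    · rw [h2]; rfl
    · rw [h1]; rfl
  · apply le_antisymm
    · rw [sup_le_iff]
      exact ⟨fun x hx => hx.1, fun x hx => hx.1⟩
    · intro x hx
      have h1 : x = v x.f * ⟨0, x.r⟩ := by
        ext i
        · simp
        · simp
      rw [h1]
      apply Subgroup.mul_mem_sup
      · exact ⟨⟨T.one_mem, hx.2⟩, rfl⟩
      · exact ⟨lift_mem T hx.1, rfl⟩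

/-- odd, intransitive case -/
lemma dec_odd {i₀ i₁ j₁ : M} (h0 : i₀ ∉ Mv T) (h1 : i₁ ∈ Mv T) (hj1 : j₁ ∈ Mv T)
    (hn : ∀ t ∈ T, t i₁ ≠ j₁) : Dec (WT T) := by
  classical
  let O : Set M := {j | ∃ t ∈ T, t i₁ = j}
  have hO : ∀ t ∈ T, ∀ i, t i ∈ O ↔ i ∈ O := by
    intro t ht i
    constructor
    · rintro ⟨u, hu, hui⟩
      exact ⟨t⁻¹ * u, T.mul_mem (T.inv_mem ht) hu, by rw [Equiv.Perm.mul_apply, hui]; simp⟩
    · rintro ⟨u, hu, hui⟩
      exact ⟨t * u, T.mul_mem ht hu, by rw [Equiv.Perm.mul_apply, hui]⟩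
  have hi1 : i₁ ∈ O := ⟨1, T.one_mem, rfl⟩
  have hj1O : j₁ ∉ O := by rintro ⟨t, ht, h⟩; exact hn t ht h
  have h0O : i₀ ∉ O := by
    rintro ⟨t, ht, h⟩
    apply h0
    rw [← h]
    exact mv_inv T ht h1
  have hfix0 : ∀ t ∈ T, t i₀ = i₀ := fix_of_not_mv T h0
  have hi10 : i₁ ≠ i₀ := by rintro rfl; exact h0O hi1
  have hj10 : j₁ ≠ i₀ := by rintro rfl; exact h0 hj1
  let A : Subgroup (WE M) :=
    { carrier := {x | x ∈ WT T ∧ (∀ i, i ∉ O → x.r i = i) ∧ (∀ i, i ∉ O → i ≠ i₀ → x.f i = 0)}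
      one_mem' := ⟨(WT T).one_mem, fun _ _ => rfl, fun _ _ _ => rfl⟩
      mul_mem' := by
        rintro x y ⟨hx, hx', hx''⟩ ⟨hy, hy', hy''⟩
        refine ⟨(WT T).mul_mem hx hy, ?_, ?_⟩
        · intro i hi
          rw [mul_r, Equiv.Perm.mul_apply, hy' i hi, hx' i hi]
        · intro i hi hi0
          have : x.r.symm i = i := by rw [Equiv.symm_apply_eq, hx' i hi]
          rw [mul_f, this, hx'' i hi hi0, hy'' i hi hi0, add_zero]
      inv_mem' := by
        rintro x ⟨hx, hx', hx''⟩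
        refine ⟨(WT T).inv_mem hx, ?_, ?_⟩
        · intro i hi
          rw [inv_r, Equiv.Perm.inv_eq_iff_eq, hx' i hi]
        · intro i hi hi0
          rw [inv_f, hx' i hi, hx'' i hi hi0] }
  let B : Subgroup (WE M) :=
    { carrier := {x | x ∈ WT T ∧ (∀ i, i ∈ O → x.r i = i) ∧ (∀ i, i ∈ O → x.f i = 0)}
      one_mem' := ⟨(WT T).one_mem, fun _ _ => rfl, fun _ _ => rfl⟩
      mul_mem' := by
        rintro x y ⟨hx, hx', hx''⟩ ⟨hy, hy', hy''⟩
        refine ⟨(WT T).mul_mem hx hy, ?_, ?_⟩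
        · intro i hi
          rw [mul_r, Equiv.Perm.mul_apply, hy' i hi, hx' i hi]
        · intro i hi
          have : x.r.symm i = i := by rw [Equiv.symm_apply_eq, hx' i hi]
          rw [mul_f, this, hx'' i hi, hy'' i hi, add_zero]
      inv_mem' := by
        rintro x ⟨hx, hx', hx''⟩
        refine ⟨(WT T).inv_mem hx, ?_, ?_⟩
        · intro i hi
          rw [inv_r, Equiv.Perm.inv_eq_iff_eq, hx' i hi]
        · intro i hi
          rw [inv_f, hx' i hi, hx'' i hi] }
  have hAB : ∀ x ∈ A, ∀ y ∈ B, (∀ i, y.f (x.r.symm i) = y.f i) ∧ (∀ i, x.f (y.r.symm i) = x.f i) := by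
    rintro x ⟨hx, hx', hx''⟩ y ⟨hy, hy', hy''⟩
    constructor
    · intro i
      by_cases hi : i ∈ O
      · have h2 : x.r.symm i ∈ O := by
          rw [← hO x.r hx.1]; simpa using hi
        rw [hy'' _ h2, hy'' _ hi]
      · have : x.r.symm i = i := by rw [Equiv.symm_apply_eq, hx' i hi]
        rw [this]
    · intro i
      by_cases hi : i ∈ O
      · have : y.r.symm i = i := by rw [Equiv.symm_apply_eq, hy' i hi]
        rw [this]
      · by_cases hi0 : i = i₀
        · have : y.r.symm i = i := by rw [Equiv.symm_apply_eq, hi0, hfix0 _ hy.1]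
          rw [this]
        · have h2 : y.r.symm i ∉ O := by
            rw [← hO y.r hy.1]; simpa using hi
          have h3 : y.r.symm i ≠ i₀ := by
            intro h
            rw [Equiv.symm_apply_eq, hfix0 _ hy.1] at h
            exact hi0 h
          rw [hx'' _ h2 h3, hx'' _ hi hi0]
  refine ⟨A, B, ?_, ?_, fun x hx => hx.1, fun x hx => hx.1, ?_, ?_, ?_⟩
  · intro h
    have h1 : v (e2 i₁ i₀) ∈ A := ⟨e2_mem _ _ _, fun _ _ => rfl, by
      intro i hi hi0
      have : i ≠ i₁ := by rintro rfl; exact hi hi1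
      simp [e2, this, hi0]⟩
    rw [h, Subgroup.mem_bot] at h1
    have h2 := congrArg (fun x => WE.f x i₁) h1
    simp [e2, hi10] at h2
  · intro h
    have h1 : v (e2 j₁ i₀) ∈ B := ⟨e2_mem _ _ _, fun _ _ => rfl, by
      intro i hi
      have h3 : i ≠ j₁ := by rintro rfl; exact hj1O hi
      have h4 : i ≠ i₀ := by rintro rfl; exact h0O hi
      simp [e2, h3, h4]⟩
    rw [h, Subgroup.mem_bot] at h1
    have h2 := congrArg (fun x => WE.f x j₁) h1
    simp [e2, hj10] at h2
  · intro x hx y hy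
    obtain ⟨e1, e2⟩ := hAB x hx y hy
    obtain ⟨hx, hx', hx''⟩ := hx
    obtain ⟨hy, hy', hy''⟩ := hy
    ext i
    · rw [mul_f, mul_f, e1, e2, add_comm]
    · simp only [mul_r, Equiv.Perm.mul_apply]
      by_cases hi : i ∈ O
      · rw [hy' i hi, hy' _ ((hO x.r hx.1 i).mpr hi)]
      · rw [hx' i hi, hx' _ (fun h => hi ((hO y.r hy.1 i).mp h))]
  · rw [eq_bot_iff]
    rintro x ⟨⟨hx, hx', hx''⟩, ⟨hy, hy', hy''⟩⟩
    rw [Subgroup.mem_bot]
    have hf : ∀ i, i ≠ i₀ → x.f i = 0 := by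
      intro i hi0
      by_cases hi : i ∈ O
      · exact hy'' i hi
      · exact hx'' i hi hi0
    ext i
    · by_cases hi0 : i = i₀
      · have h3 := hx.2
        rw [Finset.sum_eq_single i₀ (fun b _ hb => hf b hb) (fun h => absurd (Finset.mem_univ _) h)] at h3
        rw [hi0, h3]; rfl
      · rw [hf i hi0]; rfl
    · by_cases hi : i ∈ O
      · rw [hy' i hi]; rfl
      · rw [hx' i hi]; rfl
  · apply le_antisymm
    · rw [sup_le_iff]
      exact ⟨fun x hx => hx.1, fun x hx => hx.1⟩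
    · intro x hx
      obtain ⟨t', ht', ht1, ht2⟩ := split T O hO hx.1
      let s : ZMod 2 := ∑ i ∈ Finset.univ.filter (fun i => i ∈ O), x.f i
      let fa : M → ZMod 2 := fun i => if i ∈ O then x.f i else if i = i₀ then s else 0
      have hfa : ∑ i, fa i = 0 := by
        rw [← Finset.sum_filter_add_sum_filter_not Finset.univ (fun i => i ∈ O) fa]
        have e1 : ∑ i ∈ Finset.univ.filter (fun i => i ∈ O), fa i = s := by
          apply Finset.sum_congr rfl
          intro i hi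
          rw [Finset.mem_filter] at hi
          simp [fa, hi.2]
        have e2 : ∑ i ∈ Finset.univ.filter (fun i => i ∉ O), fa i = s := by
          rw [Finset.sum_eq_single i₀]
          · simp [fa, h0O]
          · intro b hb hb0
            rw [Finset.mem_filter] at hb
            simp [fa, hb.2, hb0]
          · intro h
            exact absurd (Finset.mem_filter.mpr ⟨Finset.mem_univ _, h0O⟩ :
              i₀ ∈ Finset.univ.filter (fun i => i ∉ O)) h
        rw [e1, e2]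
        exact CharTwo.add_self_eq_zero _
      let a : WE M := ⟨fa, t'⟩
      have haA : a ∈ A := ⟨⟨ht', hfa⟩, ht2, by
        intro i hi hi0
        simp [a, fa, hi, hi0]⟩
      let b : WE M := ⟨fun i => x.f i + fa i, t'⁻¹ * x.r⟩
      have hbB : b ∈ B := by
        refine ⟨⟨T.mul_mem (T.inv_mem ht') hx.1, ?_⟩, ?_, ?_⟩
        · change ∑ i, (x.f i + fa i) = 0
          rw [Finset.sum_add_distrib, hfa, hx.2, add_zero]
        · intro i hi
          change (t'⁻¹ * x.r) i = i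
          rw [Equiv.Perm.mul_apply, Equiv.Perm.inv_eq_iff_eq, ht1 i hi]
        · intro i hi
          change x.f i + fa i = 0
          simp only [fa, hi, if_true]
          exact CharTwo.add_self_eq_zero _
      have h2 : x = a * b := by
        obtain ⟨e1, e2⟩ := hAB a haA b hbB
        ext i
        · rw [mul_f, e1]
          change x.f i = fa i + (x.f i + fa i)
          have : fa i + (x.f i + fa i) = x.f i + (fa i + fa i) := by ring
          rw [this, CharTwo.add_self_eq_zero, add_zero]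
        · rw [mul_r]
          change x.r i = (t' * (t'⁻¹ * x.r)) i
          rw [mul_inv_cancel_left]
      rw [h2]
      exact Subgroup.mul_mem_sup haA hbB

end Cfsg.Agent.Syl2A
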