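import Mathlib
import Cfsg.Agent.Syl2A.Dec1

set_option autoImplicit false

namespace Cfsg.Agent.Syl2A
open WE

section
variable {G : Type*} [Group G]
lemma exists_mul {A B P : Subgroup G} (hAB : ∀ a ∈ A, ∀ b ∈ B, a * b = b * a) (hP : A ⊔ B = P) :
    ∀ x ∈ P, ∃ a ∈ A, ∃ b ∈ B, x = a * b := by
  let K : Subgroup G :=
    { carrier := {x | ∃ a ∈ A, ∃ b ∈ B, x = a * b}
      one_mem' := ⟨1, A.one_mem, 1, B.one_mem, by simp⟩
      mul_mem' := by
        rintro x y ⟨a, ha, b, hb, rfl⟩ ⟨a', ha', b', hb', rfl⟩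
        refine ⟨a * a', A.mul_mem ha ha', b * b', B.mul_mem hb hb', ?_⟩
        have := hAB a' ha' b hb
        calc a * b * (a' * b') = a * (b * a') * b' := by group
          _ = a * (a' * b) * b' := by rw [this]
          _ = a * a' * (b * b') := by group
      inv_mem' := by
        rintro x ⟨a, ha, b, hb, rfl⟩
        refine ⟨a⁻¹, A.inv_mem ha, b⁻¹, B.inv_mem hb, ?_⟩
        rw [hAB a ha b hb, mul_inv_rev] }
  have h1 : A ⊔ B ≤ K := by
    rw [sup_le_iff]
    exact ⟨fun a ha => ⟨a, ha, 1, B.one_mem, by simp⟩, fun b hb => ⟨1, A.one_mem, b, hb, by simp⟩⟩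
  intro x hx
  rw [← hP] at hx
  exact h1 hx
end

variable {M : Type*} [Fintype M] [DecidableEq M] (T : Sylow 2 (Equiv.Perm M))

/-- `s k` -/
abbrev sg (k : M) : M → ZMod 2 := Pi.single k 1

section step
variable {T} {A B : Subgroup (WE M)}
  (hc : ∀ a ∈ A, ∀ b ∈ B, a * b = b * a) (hs : A ⊔ B = WT T)
include hc hs

lemma step1 {a b : WE M} (ha : a ∈ A) (hb : b ∈ B) (i j : M) :
    sg i + sg (a.r i) + sg (b.r i) + sg (b.r (a.r i)) =
      sg j + sg (a.r j) + sg (b.r j) + sg (b.r (a.r j)) := by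
  obtain ⟨a', ha', b', hb', hx⟩ := exists_mul hc hs _ (e2_mem (T : Subgroup (Equiv.Perm M)) i j)
  have h1 : a' * a * a'⁻¹ * a⁻¹ = v (e2 i j + e2 (a.r i) (a.r j)) := by
    have e1 : v (e2 i j) * a * (v (e2 i j))⁻¹ = a' * a * a'⁻¹ := by
      rw [hx]
      have := hc a ha b' hb'
      calc a' * b' * a * (a' * b')⁻¹ = a' * (b' * a) * b'⁻¹ * a'⁻¹ := by group
        _ = a' * (a * b') * b'⁻¹ * a'⁻¹ := by rw [this]
        _ = _ := by group
    have e2' : (v (e2 i j))⁻¹ = v (e2 i j) := by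
      rw [inv_eq_iff_mul_eq_one, v_mul]
      have : e2 i j + e2 i j = 0 := by funext k; exact CharTwo.add_self_eq_zero (e2 i j k)
      rw [this, v_zero]
    rw [← e1]
    have e3 := conj_v a (e2 i j)
    have e4 : (fun k => e2 i j (a.r.symm k)) = e2 (a.r i) (a.r j) := by funext k; exact e2_perm _ _ _ _
    rw [e4] at e3
    calc v (e2 i j) * a * (v (e2 i j))⁻¹ * a⁻¹ = v (e2 i j) * (a * (v (e2 i j))⁻¹ * a⁻¹) := by group
      _ = v (e2 i j) * (a * (v (e2 i j)) * a⁻¹) := by rw [e2']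
      _ = _ := by rw [e3, v_mul]
  have h2 : a' * a * a'⁻¹ * a⁻¹ ∈ A := A.mul_mem (A.mul_mem (A.mul_mem ha' ha) (A.inv_mem ha')) (A.inv_mem ha)
  have h3 := hc _ h2 b hb
  rw [h1] at h3
  have h4 := conj_v b (e2 i j + e2 (a.r i) (a.r j))
  rw [← h3, mul_assoc, mul_inv_cancel, mul_one] at h4
  have h5 := congrArg WE.f h4
  simp only [v_f] at h5
  funext k
  have h6 := congrFun h5 k
  simp only [Pi.add_apply, e2_perm] at h6
  simp only [Pi.add_apply, sg, e2] at h6 ⊢
  generalize (Pi.single i (1:ZMod 2) : M → ZMod 2) k = x1 at *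
  generalize (Pi.single j (1:ZMod 2) : M → ZMod 2) k = x2 at *
  generalize (Pi.single (a.r i) (1:ZMod 2) : M → ZMod 2) k = x3 at *
  generalize (Pi.single (a.r j) (1:ZMod 2) : M → ZMod 2) k = x4 at *
  generalize (Pi.single (b.r i) (1:ZMod 2) : M → ZMod 2) k = x5 at *
  generalize (Pi.single (b.r j) (1:ZMod 2) : M → ZMod 2) k = x6 at *
  generalize (Pi.single (b.r (a.r i)) (1:ZMod 2) : M → ZMod 2) k = x7 at *
  generalize (Pi.single (b.r (a.r j)) (1:ZMod 2) : M → ZMod 2) k = x8 at *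
  revert h6
  clear * -
  revert x1 x2 x3 x4 x5 x6 x7 x8
  decide

lemma step2 (hM : 6 ≤ Fintype.card M) {a b : WE M} (ha : a ∈ A) (hb : b ∈ B) (i : M) :
    sg i + sg (a.r i) + sg (b.r i) + sg (b.r (a.r i)) = 0 := by
  by_contra hne
  obtain ⟨k, hk⟩ := Function.ne_iff.mp hne
  have h1 : ∀ j, j ∈ ({k, a.r.symm k, b.r.symm k, a.r.symm (b.r.symm k)} : Finset M) := by
    intro j
    have h2 := step1 hc hs ha hb i j
    rw [h2] at hk
    by_contra hj
    simp only [Finset.mem_insert, Finset.mem_singleton, not_or, ← ne_eq, Equiv.eq_symm_apply] at hj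
    obtain ⟨h3, h4, h5, h6⟩ := hj
    apply hk
    simp [sg, Ne.symm h3, Ne.symm h4, Ne.symm h5, Ne.symm h6]
  have h2 : Fintype.card M ≤ 4 := by
    rw [← Finset.card_univ]
    exact (Finset.card_le_card (fun j _ => h1 j)).trans Finset.card_le_four
  omega

lemma step3 (hM : 6 ≤ Fintype.card M) {a b : WE M} (ha : a ∈ A) (hb : b ∈ B) (i : M) :
    a.r i = i ∨ b.r i = i ∨ (a.r i = b.r i ∧ b.r (a.r i) = i) := by
  by_cases h1 : a.r i = i
  · exact Or.inl h1
  by_cases h2 : b.r i = i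
  · exact Or.inr (Or.inl h2)
  refine Or.inr (Or.inr ?_)
  have h0 := step2 hc hs hM ha hb i
  have e1 : b.r (a.r i) = i := by
    by_contra h3
    have := congrFun h0 i
    simp [sg, Ne.symm h1, Ne.symm h2, Ne.symm h3] at this
  refine ⟨?_, e1⟩
  by_contra h3
  have := congrFun h0 (a.r i)
  rw [e1] at this
  simp [sg, h1, h3] at this

lemma step4 (hM : 6 ≤ Fintype.card M) (i : M) :
    (∀ a ∈ A, a.r i = i) ∨ (∀ b ∈ B, b.r i = i) := by
  by_contra hcon
  push Not at hcon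
  obtain ⟨⟨a, ha, hai⟩, ⟨b, hb, hbi⟩⟩ := hcon
  have hr : ∀ a ∈ A, ∀ b ∈ B, ∀ k, a.r (b.r k) = b.r (a.r k) := by
    intro a ha b hb k
    have := congrArg (fun x => WE.r x k) (hc a ha b hb)
    simpa using this
  rcases step3 hc hs hM ha hb i with h | h | ⟨h1, h2⟩
  · exact hai h
  · exact hbi h
  -- i' = a.r i
  obtain ⟨i', hi'⟩ : ∃ i', a.r i = i' := ⟨_, rfl⟩
  have hgi : a.r i = i' := hi'
  have hhi : b.r i = i' := by rw [← h1, hi']
  have hhi' : b.r i' = i := by rw [← hi']; exact h2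
  have hgi' : a.r i' = i := by
    rw [← hhi, hr a ha b hb, hgi, hhi']
  have hne : i' ≠ i := by rw [← hi']; exact hai
  obtain ⟨l, hl⟩ : ∃ l, l ∉ ({i, i'} : Finset M) := by
    by_contra hcon
    push Not at hcon
    have : Fintype.card M ≤ 2 := by
      rw [← Finset.card_univ]
      exact (Finset.card_le_card (fun j _ => hcon j)).trans Finset.card_le_two
    omega
  simp only [Finset.mem_insert, Finset.mem_singleton, not_or] at hl
  obtain ⟨a₁, ha₁, b₁, hb₁, hx⟩ := exists_mul hc hs _ (e2_mem (T : Subgroup (Equiv.Perm M)) i l)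
  have sg1 : a.r.symm i = i' := by rw [Equiv.symm_apply_eq, hgi']
  have sh1 : b.r.symm i = i' := by rw [Equiv.symm_apply_eq, hhi']
  have E1 := congrArg (fun x => WE.f x i) (hc a ha b hb)
  simp only [mul_f, sg1, sh1] at E1
  have E2 := congrArg (fun x => WE.f x i) (hc a₁ ha₁ b hb)
  simp only [mul_f, sh1] at E2
  -- x a = a₁ a b₁ , a x = a a₁ b₁
  have X1 : v (e2 i l) * a = a₁ * a * b₁ := by
    rw [hx, mul_assoc, ← hc a ha b₁ hb₁, mul_assoc]
  have X2 : a * v (e2 i l) = a * a₁ * b₁ := by rw [hx, mul_assoc]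
  have E3 := congrArg (fun x => WE.f x i) X1
  have E4 := congrArg (fun x => WE.f x i) X2
  have R1 : a₁.r * a.r = a.r * a₁.r := by
    have q1 := congrArg WE.r X1
    have q2 := congrArg WE.r X2
    simp only [mul_r, v_r, one_mul, mul_one] at q1 q2
    exact mul_right_cancel (q1.symm.trans q2)
  have hv : (v (e2 i l)).f i = 1 := by
    simp [e2, Ne.symm hl.1]
  have hv' : (v (e2 i l)).f i' = 0 := by
    simp [e2, hne, Ne.symm hl.2]
  simp only [mul_f, v_r, sg1, hv, hv', mul_r] at E3 E4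
  rw [R1] at E3
  have hone : (1 : Equiv.Perm M).symm i = i := rfl
  rw [hone] at E3
  have case : a₁.r.symm i = i ∨ a₁.r.symm i = i' := by
    rcases step3 hc hs hM ha₁ hb i with h | h | ⟨h3, h4⟩
    · left; rw [Equiv.symm_apply_eq, h]
    · exact absurd h hbi
    · right
      rw [Equiv.symm_apply_eq, ← hhi, hr a₁ ha₁ b hb, h4]
  generalize (b₁.f ((a.r * a₁.r).symm i)) = y at *
  rcases case with hcase | hcase
  · rw [hcase] at E2 E3
    generalize a₁.f i = x1 at *
    generalize a₁.f i' = x2 at *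
    generalize a.f i = x3 at *
    generalize a.f i' = x4 at *
    generalize b.f i = x5 at *
    generalize b.f i' = x6 at *
    revert E1 E2 E3 E4
    clear * -
    revert x1 x2 x3 x4 x5 x6 y
    decide
  · rw [hcase] at E2 E3
    generalize a₁.f i = x1 at *
    generalize a₁.f i' = x2 at *
    generalize a.f i = x3 at *
    generalize a.f i' = x4 at *
    generalize b.f i = x5 at *
    generalize b.f i' = x6 at *
    revert E1 E2 E3 E4
    clear * -
    revert x1 x2 x3 x4 x5 x6 y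
    decide


lemma caseC (hAW : A ≤ WT T) (hBW : B ≤ WT T) (hi : A ⊓ B = ⊥) (hA : A ≠ ⊥) (hmv : ∀ i, i ∈ Mv T)
    (hnt : ∀ i : M, ∃ l : M, ∀ t ∈ T, t i ≠ l) (hr : ∀ a ∈ A, a.r = 1) : False := by
  classical
  have hex := exists_mul hc hs
  have huniq : ∀ a ∈ A, ∀ a' ∈ A, ∀ b ∈ B, ∀ b' ∈ B, a * b = a' * b' → a = a' := by
    intro a ha a' ha' b hb b' hb' h
    have h1 : a'⁻¹ * a = b' * b⁻¹ := by
      rw [inv_mul_eq_iff_eq_mul, ← mul_assoc, ← h, mul_inv_cancel_right]
    have h2 : a'⁻¹ * a ∈ A ⊓ B := ⟨A.mul_mem (A.inv_mem ha') ha, by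
      rw [h1]; exact B.mul_mem hb' (B.inv_mem hb)⟩
    rw [hi, Subgroup.mem_bot, inv_mul_eq_one] at h2
    exact h2.symm
  obtain ⟨a₀, ha₀, ha₀1⟩ : ∃ a ∈ A, a ≠ 1 := by
    obtain ⟨x, hx⟩ := Subgroup.ne_bot_iff_exists_ne_one.mp hA
    exact ⟨x.1, x.2, fun h => hx (Subtype.ext h)⟩
  have hi0 : ∃ i₀, a₀.f i₀ ≠ 0 := by
    by_contra hcon
    push Not at hcon
    apply ha₀1
    ext i
    · rw [hcon i]; rfl
    · rw [hr a₀ ha₀]; rfl
  obtain ⟨i₀, hi₀⟩ := hi0
  -- projection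
  let α : ∀ x ∈ WT T, WE M := fun x hx => (hex x hx).choose
  have hα : ∀ x (hx : x ∈ WT T), α x hx ∈ A := fun x hx => (hex x hx).choose_spec.1
  have hα' : ∀ x (hx : x ∈ WT T), ∃ b ∈ B, x = α x hx * b := fun x hx => (hex x hx).choose_spec.2
  have hval : ∀ x (hx : x ∈ WT T), ∀ a ∈ A, ∀ b ∈ B, x = a * b → α x hx = a := by
    intro x hx a ha b hb h
    obtain ⟨b', hb', h'⟩ := hα' x hx
    exact huniq _ (hα x hx) _ ha _ hb' _ hb (h'.symm.trans h)
  let φ : WE M → ZMod 2 := fun x => if hx : x ∈ WT T then (α x hx).f i₀ else 0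
  have hφ : ∀ x ∈ WT T, ∀ a ∈ A, ∀ b ∈ B, x = a * b → φ x = a.f i₀ := by
    intro x hx a ha b hb h
    simp only [φ, hx, dif_pos]
    rw [hval x hx a ha b hb h]
  have φmul : ∀ x ∈ WT T, ∀ y ∈ WT T, φ (x * y) = φ x + φ y := by
    intro x hx y hy
    obtain ⟨a, ha, b, hb, h⟩ := hex x hx
    obtain ⟨a', ha', b', hb', h'⟩ := hex y hy
    have e0 : x * y = (a * a') * (b * b') := by
      have e1 := hc _ ha' b hb
      calc x * y = (a * b) * (a' * b') := by rw [← h, ← h']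
        _ = a * (b * a') * b' := by group
        _ = a * (a' * b) * b' := by rw [e1]
        _ = _ := by group
    rw [hφ _ ((WT T).mul_mem hx hy) _ (A.mul_mem ha ha') _ (B.mul_mem hb hb') e0,
      hφ x hx a ha b hb h, hφ y hy a' ha' b' hb' h', mul_f, hr _ ha]
    rfl
  have φone : φ 1 = 0 := by
    rw [hφ 1 (WT T).one_mem 1 A.one_mem 1 B.one_mem (by simp)]
    rfl
  have vmem : ∀ f : M → ZMod 2, ∑ i, f i = 0 → v f ∈ WT T := fun f hf => ⟨T.one_mem, hf⟩
  let pr : (M → ZMod 2) → (M → ZMod 2) := fun f => f + (∑ i, f i) • sg i₀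
  have hpr : ∀ f, ∑ i, pr f i = 0 := by
    intro f
    simp only [pr, Pi.add_apply, Pi.smul_apply, Finset.sum_add_distrib, smul_eq_mul, ← Finset.mul_sum]
    rw [Finset.sum_pi_single']
    simp only [Finset.mem_univ, if_true, mul_one]
    exact CharTwo.add_self_eq_zero _
  have pr0 : ∀ f, ∑ i, f i = 0 → pr f = f := by
    intro f hf
    simp only [pr, hf, zero_smul, add_zero]
  have pradd : ∀ f g, pr (f + g) = pr f + pr g := by
    intro f g
    simp only [pr, Pi.add_apply, Finset.sum_add_distrib, add_smul]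
    abel
  let Φ : (M → ZMod 2) →+ ZMod 2 :=
    { toFun := fun f => φ (v (pr f))
      map_zero' := by
        rw [pr0 0 (by simp), v_zero]
        exact φone
      map_add' := by
        intro f g
        rw [pradd, ← v_mul, φmul _ (vmem _ (hpr f)) _ (vmem _ (hpr g))] }
  have hΦ : ∀ f (hf : ∑ i, f i = 0), Φ f = φ (v f) := by
    intro f hf
    change φ (v (pr f)) = _
    rw [pr0 f hf]
  -- equivariance on e2
  have heq : ∀ t ∈ T, ∀ i j, Φ (e2 (t i) (t j)) = Φ (e2 i j) := by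
    intro t ht i j
    rw [hΦ _ (e2_sum _ _), hΦ _ (e2_sum _ _)]
    have hx := lift_mem T ht
    have hx' := (WT T).inv_mem hx
    have hv := e2_mem (T : Subgroup (Equiv.Perm M)) i j
    have e1 := conj_v (⟨0, t⟩ : WE M) (e2 i j)
    have e2' : (fun k => e2 i j ((⟨0, t⟩ : WE M).r.symm k)) = e2 (t i) (t j) := by
      funext k; exact e2_perm _ _ _ _
    rw [e2'] at e1
    rw [← e1, φmul _ ((WT T).mul_mem hx hv) _ hx', φmul _ hx _ hv]
    have e5 := φmul _ hx _ hx'
    rw [mul_inv_cancel, φone] at e5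
    generalize φ (v (e2 i j)) = y1 at *
    generalize φ (⟨0, t⟩ : WE M) = y2 at *
    generalize φ (⟨0, t⟩ : WE M)⁻¹ = y3 at *
    revert e5
    clear * -
    revert y1 y2 y3
    decide
  let c : M → ZMod 2 := fun i => Φ (sg i)
  have he2 : ∀ i j, Φ (e2 i j) = c i + c j := fun i j => map_add Φ _ _
  have hcc : ∀ t ∈ T, ∀ i, c (t i) = c i := by
    intro t ht i
    obtain ⟨l, hl⟩ := hnt i
    let O : Set M := {j | ∃ t ∈ T, t i = j}
    have hO : ∀ t ∈ T, ∀ i, t i ∈ O ↔ i ∈ O := by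
      intro t ht i
      constructor
      · rintro ⟨u, hu, hui⟩
        exact ⟨t⁻¹ * u, T.mul_mem (T.inv_mem ht) hu, by rw [Equiv.Perm.mul_apply, hui]; simp⟩
      · rintro ⟨u, hu, hui⟩
        exact ⟨t * u, T.mul_mem ht hu, by rw [Equiv.Perm.mul_apply, hui]⟩
    have hiO : i ∈ O := ⟨1, T.one_mem, rfl⟩
    have hlO : l ∉ O := by rintro ⟨t, ht, h⟩; exact hl t ht h
    obtain ⟨t', ht', h1, h2⟩ := split T O hO ht
    have h3 := heq t' ht' i l
    rw [he2, he2, h1 i hiO, h2 l hlO] at h3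
    exact add_right_cancel h3
  -- Φ as a sum
  have hsum : ∀ f : M → ZMod 2, Φ f = ∑ k, f k * c k := by
    intro f
    have e1 : f = ∑ k, f k • (sg k : M → ZMod 2) := by
      funext i
      rw [Finset.sum_apply]
      simp [sg, Pi.single_apply]
    conv_lhs => rw [e1]
    rw [map_sum]
    apply Finset.sum_congr rfl
    intro k _
    have : ∀ z : ZMod 2, z = 0 ∨ z = 1 := by decide
    rcases this (f k) with h | h
    · rw [h, zero_smul, map_zero, zero_mul]
    · rw [h, one_smul, one_mul]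
  -- a₀ central
  have hcen : ∀ x ∈ WT T, x * a₀ = a₀ * x := by
    intro x hx
    obtain ⟨a, ha, b, hb, rfl⟩ := hex x hx
    have e1 : a * a₀ = a₀ * a := by
      ext i
      · rw [mul_f, mul_f, hr a ha, hr a₀ ha₀]
        exact add_comm _ _
      · rw [mul_r, mul_r, hr a ha, hr a₀ ha₀]
    calc a * b * a₀ = a * (b * a₀) := by group
      _ = a * (a₀ * b) := by rw [hc a₀ ha₀ b hb]
      _ = a * a₀ * b := by group
      _ = a₀ * a * b := by rw [e1]
      _ = _ := by group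
  have hinv := central_f T hcen
  have hzero : Φ a₀.f = 0 := by
    rw [hsum]
    apply sum_inv (T : Subgroup (Equiv.Perm M)) T.isPGroup'
    · intro t _ i _; exact Finset.mem_univ _
    · intro i _; exact hmv i
    · intro t ht i _
      rw [hinv t ht, hcc t ht]
  apply hi₀
  rw [← hzero, hΦ _ (hAW ha₀).2]
  have : v a₀.f = a₀ := by
    ext i
    · rfl
    · rw [hr a₀ ha₀]; rfl
  rw [this]
  exact (hφ a₀ (hAW ha₀) a₀ ha₀ 1 B.one_mem (mul_one _).symm).symm

end step

variable {T} in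
lemma sumSA {A B : Subgroup (WE M)} (hc : ∀ a ∈ A, ∀ b ∈ B, a * b = b * a) (hAW : A ≤ WT T)
    (S : Finset M) (hS : ∀ a ∈ A, ∀ i, i ∈ S → a.r i ∈ S) (hmv : ∀ i ∈ S, ∃ a ∈ A, a.r i ≠ i)
    (hBS : ∀ b ∈ B, ∀ i ∈ S, b.r i = i) {b : WE M} (hb : b ∈ B) : ∑ i ∈ S, b.f i = 0 := by
  classical
  let ρ : WE M →* Equiv.Perm M := { toFun := WE.r, map_one' := rfl, map_mul' := fun _ _ => rfl }
  have hp : IsPGroup 2 (A.map ρ) := ((isPGroup_WT T).to_le hAW).map ρ
  apply sum_inv (A.map ρ) hp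
  · rintro _ ⟨a, ha, rfl⟩ i hi
    exact hS a ha i hi
  · intro i hi
    obtain ⟨a, ha, h⟩ := hmv i hi
    exact ⟨a.r, ⟨a, ha, rfl⟩, h⟩
  · rintro _ ⟨a, ha, rfl⟩ i hi
    have h1 := congrArg (fun x => WE.f x (a.r i)) (hc a ha b hb)
    simp only [mul_f, Equiv.symm_apply_apply] at h1
    have h2 : b.r.symm (a.r i) = a.r i := by
      rw [Equiv.symm_apply_eq, hBS b hb _ (hS a ha i hi)]
    rw [h2, add_comm] at h1
    exact (add_right_cancel h1).symm

/-- even intransitive case -/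
lemma not_dec_even (hM : 6 ≤ Fintype.card M) (hmv : ∀ i, i ∈ Mv T)
    (hnt : ∀ i : M, ∃ l : M, ∀ t ∈ T, t i ≠ l) : ¬ Dec (WT T) := by
  classical
  rintro ⟨A, B, hA, hB, hAW, hBW, hc, hi, hs⟩
  have hc' : ∀ b ∈ B, ∀ a ∈ A, b * a = a * b := fun b hb a ha => (hc a ha b hb).symm
  have hs' : B ⊔ A = WT T := by rw [sup_comm]; exact hs
  have hi' : B ⊓ A = ⊥ := by rw [inf_comm]; exact hi
  have h4 := step4 hc hs hM
  let S : Finset M := Finset.univ.filter (fun i => ∃ a ∈ A, a.r i ≠ i)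
  have hmemS : ∀ i, i ∈ S ↔ ∃ a ∈ A, a.r i ≠ i := by intro i; simp [S]
  have hnS : ∀ i, i ∉ S → ∀ a ∈ A, a.r i = i := by
    intro i hi a ha
    by_contra h
    exact hi ((hmemS i).mpr ⟨a, ha, h⟩)
  have hSB : ∀ i ∈ S, ∀ b ∈ B, b.r i = i := by
    intro i hi
    rcases h4 i with h | h
    · obtain ⟨a, ha, hai⟩ := (hmemS i).mp hi
      exact absurd (h a ha) hai
    · exact h
  have hnSB : ∀ i, i ∉ S → ∃ b ∈ B, b.r i ≠ i := by
    intro i hi
    obtain ⟨t, ht, hti⟩ := hmv i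
    obtain ⟨a, ha, b, hb, h⟩ := exists_mul hc hs _ (lift_mem T ht)
    refine ⟨b, hb, ?_⟩
    intro hbi
    apply hti
    have h5 := congrArg (fun x => WE.r x i) h
    simp only [mul_r, Equiv.Perm.mul_apply] at h5
    rw [h5, hbi, hnS i hi a ha]
  by_cases hS0 : ∃ i, i ∈ S
  · by_cases hS1 : ∃ j, j ∉ S
    · obtain ⟨i, hiS⟩ := hS0
      obtain ⟨j, hjS⟩ := hS1
      have hSA : ∀ a ∈ A, ∀ i, i ∈ S → a.r i ∈ S := by
        intro a ha i hi
        rw [hmemS] at hi ⊢
        obtain ⟨a', ha', h⟩ := hi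
        refine ⟨a * a' * a⁻¹, A.mul_mem (A.mul_mem ha ha') (A.inv_mem ha), ?_⟩
        intro h'
        apply h
        simp only [mul_r, inv_r, Equiv.Perm.mul_apply] at h'
        have h6 := a.r.injective h'
        simpa using h6
      have hSc : ∀ b ∈ B, ∀ i, i ∈ Sᶜ → b.r i ∈ Sᶜ := by
        intro b hb i hi
        rw [Finset.mem_compl] at hi ⊢
        intro h
        apply hi
        have h5 := hSB _ h b⁻¹ (B.inv_mem hb)
        simp only [inv_r] at h5
        have h6 : b.r⁻¹ (b.r i) = i := by simp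
        rw [h6] at h5
        rw [h5]; exact h
      have sB : ∀ b ∈ B, ∑ i ∈ S, b.f i = 0 := fun b hb =>
        sumSA hc hAW S hSA (fun i hi => (hmemS i).mp hi) (fun b hb i hi => hSB i hi b hb) hb
      have sA : ∀ a ∈ A, ∑ i ∈ S, a.f i = 0 := by
        intro a ha
        have h5 : ∑ i ∈ Sᶜ, a.f i = 0 :=
          sumSA hc' hBW Sᶜ hSc (fun i hi => hnSB i (Finset.mem_compl.mp hi))
            (fun a ha i hi => hnS i (Finset.mem_compl.mp hi) a ha) ha
        have h6 := Finset.sum_add_sum_compl S a.f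
        rw [h5, add_zero, (hAW ha).2] at h6
        exact h6
      obtain ⟨a, ha, b, hb, hx⟩ := exists_mul hc hs _ (e2_mem (T : Subgroup (Equiv.Perm M)) i j)
      have h7 : ∑ k ∈ S, (v (e2 i j)).f k = 0 := by
        rw [hx]
        simp only [mul_f, Finset.sum_add_distrib]
        rw [sA a ha, zero_add, ← sB b hb]
        have himg : S = S.map a.r.toEmbedding := by
          symm
          apply Finset.eq_of_subset_of_card_le
          · intro k hk
            rw [Finset.mem_map] at hk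
            obtain ⟨k', hk', rfl⟩ := hk
            exact hSA a ha k' hk'
          · rw [Finset.card_map]
        conv_lhs => rw [himg]
        rw [Finset.sum_map]
        simp
      have h8 : ∑ k ∈ S, (v (e2 i j)).f k = 1 := by
        simp only [v_f, e2, Pi.add_apply, Finset.sum_add_distrib, Finset.sum_pi_single', hiS, hjS]
        simp
      rw [h7] at h8
      exact absurd h8 (by decide)
    · push Not at hS1
      refine caseC hc' hs' hBW hAW hi' hB hmv hnt ?_
      intro b hb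
      ext i
      rw [hSB i (hS1 i) b hb]; rfl
  · push Not at hS0
    refine caseC hc hs hAW hBW hi hA hmv hnt ?_
    intro a ha
    ext i
    rw [hnS i (hS0 i) a ha]; rfl

end Cfsg.Agent.Syl2A
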