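import Mathlib
import Cfsg.Agent.Syl2A.Dec2

set_option autoImplicit false

namespace Cfsg.Agent.Syl2A
open WE

section
variable {M : Type*} [Fintype M] [DecidableEq M] (T : Sylow 2 (Equiv.Perm M))

theorem dec_iff (hm : 2 ≤ Fintype.card M) : Dec (WT T) ↔
    (Fintype.card M = 2 ∨ (Fintype.card M % 2 = 1 ∧ ∀ k : ℕ, Fintype.card M - 1 ≠ 2 ^ k)) := by
  classical
  have hcong := T.isPGroup'.card_modEq_card_fixedPoints (α := M)
  have hfp : MulAction.fixedPoints T M = (Mv T)ᶜ := by
    ext i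
    constructor
    · rintro h ⟨t, ht, hti⟩
      exact hti (h ⟨t, ht⟩)
    · intro h t
      exact fix_of_not_mv T h t.1 t.2
  have hsub : (Mv T)ᶜ.Subsingleton := by
    intro a ha b hb
    exact fixed_unique T (fix_of_not_mv T ha) (fix_of_not_mv T hb)
  rw [hfp, Nat.card_eq_fintype_card] at hcong
  change _ ≡ (Mv T)ᶜ.ncard [MOD 2] at hcong
  have hle : (Mv T)ᶜ.ncard ≤ 1 := Set.ncard_le_one_iff_subsingleton.mpr hsub
  have hadd : (Mv T).ncard + (Mv T)ᶜ.ncard = Fintype.card M := by
    rw [Set.ncard_add_ncard_compl, Nat.card_eq_fintype_card]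
  rcases Nat.even_or_odd (Fintype.card M) with hev | hodd
  · have h0 : (Mv T)ᶜ.ncard = 0 := by
      unfold Nat.ModEq at hcong
      obtain ⟨r, hr⟩ := hev
      omega
    rw [Set.ncard_eq_zero, Set.compl_empty_iff] at h0
    have hmv : ∀ i, i ∈ Mv T := fun i => by rw [h0]; trivial
    rw [h0, Set.compl_univ, Set.ncard_empty, add_zero] at hadd
    have hM2 : Fintype.card M % 2 = 0 := Nat.even_iff.mp hev
    by_cases h2 : Fintype.card M = 2
    · exact ⟨fun _ => Or.inl h2, fun _ => dec_two T h2⟩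
    have h3 : 3 ≤ Fintype.card M := by omega
    have hR : ¬ (Fintype.card M = 2 ∨ (Fintype.card M % 2 = 1 ∧ ∀ k : ℕ, Fintype.card M - 1 ≠ 2 ^ k)) := by
      rintro (h | ⟨h, _⟩) <;> omega
    simp only [hR, iff_false]
    by_cases htr : ∀ i ∈ Mv T, ∀ j ∈ Mv T, ∃ t ∈ T, t i = j
    · exact not_dec_of_trans T h3 htr
    · have h4 : Fintype.card M ≠ 4 := by
        intro h4
        apply htr
        intro i hi j hj
        apply trans_of_pow T (k := 2) _ hi hj
        change (Mv T).ncard = _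
        rw [h0, hadd, h4]
        norm_num
      apply not_dec_even T (by omega) hmv
      intro i
      by_contra hcon
      push Not at hcon
      apply htr
      intro a _ b _
      obtain ⟨t, ht, hta⟩ := hcon a
      obtain ⟨u, hu, hub⟩ := hcon b
      refine ⟨u * t⁻¹, T.mul_mem hu (T.inv_mem ht), ?_⟩
      rw [Equiv.Perm.mul_apply, ← hub, ← hta]
      simp
  · have h1 : (Mv T)ᶜ.ncard = 1 := by
      unfold Nat.ModEq at hcong
      obtain ⟨r, hr⟩ := hodd
      omega
    have hM2 : Fintype.card M % 2 = 1 := Nat.odd_iff.mp hodd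
    obtain ⟨i₀, hi₀⟩ := Set.ncard_eq_one.mp h1
    have h0 : i₀ ∉ Mv T := by
      have : i₀ ∈ (Mv T)ᶜ := by rw [hi₀]; rfl
      exact this
    have hcM : (Mv T).ncard = Fintype.card M - 1 := by omega
    by_cases hp : ∃ k : ℕ, Fintype.card M - 1 = 2 ^ k
    · obtain ⟨k, hk⟩ := hp
      have hR : ¬ (Fintype.card M = 2 ∨ (Fintype.card M % 2 = 1 ∧ ∀ k : ℕ, Fintype.card M - 1 ≠ 2 ^ k)) := by
        rintro (h | ⟨_, h⟩)
        · omega
        · exact h k hk
      simp only [hR, iff_false]
      apply not_dec_of_trans T (by omega)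
      intro i hi j hj
      apply trans_of_pow T (k := k) _ hi hj
      change (Mv T).ncard = _
      rw [hcM, hk]
    · push Not at hp
      refine ⟨fun _ => Or.inr ⟨hM2, hp⟩, fun _ => ?_⟩
      have hne : (Mv T).Nonempty := by
        rw [← Set.ncard_pos]
        omega
      obtain ⟨i₁, hi₁⟩ := hne
      by_cases htr : ∀ j ∈ Mv T, ∃ t ∈ T, t i₁ = j
      · obtain ⟨k, hk⟩ := pow_of_trans T hi₁ htr
        exfalso
        change (Mv T).ncard = _ at hk
        exact hp k (by rw [← hcM, hk])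
      · push Not at htr
        obtain ⟨j₁, hj₁, hn⟩ := htr
        exact dec_odd T h0 hi₁ hj₁ hn

end

/-! group level decomposability -/

def Dec' (G : Type*) [Group G] : Prop :=
  ∃ S₁ S₂ : Subgroup G, S₁ ≠ ⊥ ∧ S₂ ≠ ⊥ ∧ (∀ a ∈ S₁, ∀ b ∈ S₂, a * b = b * a) ∧ S₁ ⊓ S₂ = ⊥ ∧ S₁ ⊔ S₂ = ⊤

lemma dec_iff_dec' {G : Type*} [Group G] (P : Subgroup G) : Dec P ↔ Dec' P := by
  constructor
  · rintro ⟨A, B, hA, hB, hAP, hBP, hc, hi, hs⟩
    refine ⟨A.subgroupOf P, B.subgroupOf P, ?_, ?_, ?_, ?_, ?_⟩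
    · intro h
      rw [Subgroup.subgroupOf_eq_bot] at h
      apply hA
      have := h.eq_bot_of_le hAP
      exact this
    · intro h
      rw [Subgroup.subgroupOf_eq_bot] at h
      exact hB (h.eq_bot_of_le hBP)
    · intro a ha b hb
      ext
      exact hc _ ha _ hb
    · rw [eq_bot_iff]
      rintro x ⟨h1, h2⟩
      rw [Subgroup.mem_bot]
      ext
      have : x.1 ∈ A ⊓ B := ⟨h1, h2⟩
      rw [hi] at this
      exact this
    · rw [← Subgroup.subgroupOf_sup hAP hBP, hs, Subgroup.subgroupOf_self]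
  · rintro ⟨A, B, hA, hB, hc, hi, hs⟩
    refine ⟨A.map P.subtype, B.map P.subtype, ?_, ?_, ?_, ?_, ?_, ?_, ?_⟩
    · intro h
      rw [Subgroup.map_eq_bot_iff_of_injective _ P.subtype_injective] at h
      exact hA h
    · intro h
      rw [Subgroup.map_eq_bot_iff_of_injective _ P.subtype_injective] at h
      exact hB h
    · exact Subgroup.map_subtype_le A
    · exact Subgroup.map_subtype_le B
    · rintro _ ⟨a, ha, rfl⟩ _ ⟨b, hb, rfl⟩
      rw [← map_mul, ← map_mul, hc a ha b hb]
    · rw [← Subgroup.map_inf _ _ _ P.subtype_injective, hi, Subgroup.map_bot]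
    · rw [← Subgroup.map_sup, hs, ← MonoidHom.range_eq_map, Subgroup.range_subtype]

lemma dec'_congr {G H : Type*} [Group G] [Group H] (e : G ≃* H) (h : Dec' G) : Dec' H := by
  obtain ⟨A, B, hA, hB, hc, hi, hs⟩ := h
  refine ⟨A.map e.toMonoidHom, B.map e.toMonoidHom, ?_, ?_, ?_, ?_, ?_⟩
  · intro h
    rw [Subgroup.map_eq_bot_iff_of_injective _ e.injective] at h
    exact hA h
  · intro h
    rw [Subgroup.map_eq_bot_iff_of_injective _ e.injective] at h
    exact hB h
  · rintro _ ⟨a, ha, rfl⟩ _ ⟨b, hb, rfl⟩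
    rw [← map_mul, ← map_mul, hc a ha b hb]
  · rw [← Subgroup.map_inf _ _ _ e.injective, hi, Subgroup.map_bot]
  · rw [← Subgroup.map_sup, hs]
    exact Subgroup.map_top_of_surjective _ e.surjective

/-! embedding into the symmetric group -/

section
variable {M : Type*}

/-- the permutation of `M × ZMod 2` -/
def pm (x : WE M) : Equiv.Perm (M × ZMod 2) where
  toFun p := (x.r p.1, p.2 + x.f (x.r p.1))
  invFun p := (x.r.symm p.1, p.2 + x.f p.1)
  left_inv := by
    rintro ⟨i, b⟩
    simp only [Equiv.symm_apply_apply, Prod.mk.injEq, true_and, add_assoc]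
    rw [CharTwo.add_self_eq_zero, add_zero]
  right_inv := by
    rintro ⟨i, b⟩
    simp only [Equiv.apply_symm_apply, Prod.mk.injEq, true_and, add_assoc]
    rw [CharTwo.add_self_eq_zero, add_zero]

def pmHom : WE M →* Equiv.Perm (M × ZMod 2) where
  toFun := pm
  map_one' := by
    ext p
    · rfl
    · simp [pm]
  map_mul' := by
    intro x y
    apply Equiv.ext
    rintro ⟨i, b⟩
    simp only [pm, mul_r, mul_f, Equiv.coe_fn_mk, Equiv.Perm.mul_apply, Prod.mk.injEq, true_and,
      Equiv.symm_apply_apply]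
    ring

lemma pm_inj : Function.Injective (pmHom (M := M)) := by
  rw [injective_iff_map_eq_one]
  intro x hx
  have h : ∀ i b, (x.r i, b + x.f (x.r i)) = (i, b) := fun i b => congrArg (fun e => e (i, b)) hx
  have hr : x.r = 1 := by
    ext i
    exact congrArg Prod.fst (h i 0)
  ext i
  · have h2 : x.r i = i := by rw [hr]; rfl
    have h1 := congrArg Prod.snd (h i 0)
    simp only [h2, zero_add] at h1
    rw [h1]; rfl
  · rw [hr]; rfl

variable [Fintype M] [DecidableEq M]

lemma sign_pm (x : WE M) : Equiv.Perm.sign (pmHom x) = 1 ↔ ∑ i, x.f i = 0 := by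
  have h1 : x = v x.f * ⟨0, x.r⟩ := by
    ext i
    · simp
    · simp
  have h2 : Equiv.Perm.sign (pmHom (⟨0, x.r⟩ : WE M)) = 1 := by
    have e1 : pmHom (⟨0, x.r⟩ : WE M) = Equiv.prodCongrLeft (fun _ : ZMod 2 => x.r) := by
      apply Equiv.ext
      rintro ⟨i, b⟩
      simp [pmHom, pm]
    rw [e1, Equiv.Perm.sign_prodCongrLeft, Finset.prod_const]
    have : (Finset.univ : Finset (ZMod 2)).card = 2 := rfl
    rw [this]
    exact Int.units_sq _
  have h3 : Equiv.Perm.sign (pmHom (v x.f)) = ∏ i, (if x.f i = 0 then (1 : ℤˣ) else -1) := by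
    have e1 : pmHom (v x.f) = Equiv.prodCongrRight (fun i => Equiv.addRight (x.f i)) := by
      apply Equiv.ext
      rintro ⟨i, b⟩
      simp [pmHom, pm]
    rw [e1, Equiv.Perm.sign_prodCongrRight]
    apply Finset.prod_congr rfl
    intro i _
    have : ∀ z : ZMod 2, Equiv.Perm.sign (Equiv.addRight z : Equiv.Perm (ZMod 2)) = if z = 0 then (1 : ℤˣ) else -1 := by
      decide
    exact this _
  rw [h1, map_mul, map_mul, h2, mul_one, h3]
  simp only [mul_f, v_f]
  have h4 : ∑ i, (x.f i + (0 : M → ZMod 2) ((v x.f).r.symm i)) = ∑ i, x.f i := by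
    apply Finset.sum_congr rfl
    intro i _
    simp
  rw [h4]
  -- homomorphism ZMod 2 → units
  have h5 : ∀ s : Finset M, (∏ i ∈ s, (if x.f i = 0 then (1 : ℤˣ) else -1)) =
      if ∑ i ∈ s, x.f i = 0 then (1 : ℤˣ) else -1 := by
    intro s
    induction s using Finset.induction_on with
    | empty => simp
    | insert a s ha ih =>
      rw [Finset.prod_insert ha, Finset.sum_insert ha, ih]
      generalize x.f a = y
      generalize ∑ i ∈ s, x.f i = z
      revert y z
      decide
  rw [h5 Finset.univ]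
  split_ifs with h
  · simp [h]
  · simp only [h, iff_false]
    decide

end

lemma card_WT {M : Type*} [Fintype M] [DecidableEq M] [Nonempty M] (T : Sylow 2 (Equiv.Perm M)) :
    2 * Nat.card (WT T) = 2 ^ Fintype.card M * Nat.card T := by
  let s : (M → ZMod 2) →+ ZMod 2 :=
    { toFun := fun f => ∑ i, f i
      map_zero' := by simp
      map_add' := fun f g => by simp [Finset.sum_add_distrib] }
  have hs : Function.Surjective s := by
    intro z
    obtain ⟨i⟩ := ‹Nonempty M›
    refine ⟨Pi.single i z, ?_⟩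
    change ∑ k, (Pi.single i z : M → ZMod 2) k = z
    rw [Finset.sum_pi_single']
    simp
  have h1 : 2 * Nat.card s.ker = 2 ^ Fintype.card M := by
    have h2 := AddSubgroup.index_mul_card s.ker
    rw [AddSubgroup.index_ker, AddMonoidHom.range_eq_top.mpr hs] at h2
    have h3 : Nat.card (⊤ : AddSubgroup (ZMod 2)) = 2 := by
      rw [AddSubgroup.card_top, Nat.card_zmod]
    rw [h3] at h2
    rw [h2, Nat.card_eq_fintype_card, Fintype.card_fun, ZMod.card]
  have h4 : Nat.card (WT T) = Nat.card s.ker * Nat.card T := by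
    rw [← Nat.card_prod]
    apply Nat.card_congr
    exact
      { toFun := fun x => (⟨x.1.f, x.2.2⟩, ⟨x.1.r, x.2.1⟩)
        invFun := fun y => ⟨⟨y.1.1, y.2.1⟩, y.2.2, y.1.2⟩
        left_inv := fun x => rfl
        right_inv := fun y => rfl }
  rw [h4, ← mul_assoc, h1]

end Cfsg.Agent.Syl2A
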